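import Cfsg.Agent.H53.SimXASpec

/-! S3694, chapter XA: invariance of the span and of the blocks (job BI). -/

set_option autoImplicit false

namespace H47.SimBI

open Subgroup Cfsg H98 Matrix H0.Sim H53.XA

theorem job : JBI := by
  classical
  intro th' rp red bk rk n F _ _ u q p Θ H Q E g x
  have fq : Fq F u q := x.par.card
  have hE := (rp n F u q p Θ H Q E g x).1
  obtain ⟨cm, -, -, -⟩ := red n F u q E fq hE
  obtain ⟨-, -, sm, 𝒯, hT, hs⟩ := bk n F u q E fq hE
  have T := fun j (hj : j ∈ Θ) => th' n F u q j fq (x.ok j hj)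
  have z0 : ∀ j ∈ Θ, th j (0 : Mt n F) = 0 := fun j hj => by
    have := (T j hj).2.2.1 0 0
    rwa [zero_smul, map_zero, zero_smul] at this
  have bij : ∀ X : Set (Mt n F), Iv Θ X → ∀ j ∈ Θ, Set.BijOn (th j) X X := fun X hX j hj =>
    ((Set.toFinite X).injOn_iff_bijOn_of_mapsTo fun m hm => hX j hj m hm).1 (T j hj).1.1.injOn
  have i1 : Iv Θ (Sp E : Set (Mt n F)) := fun j hj m hm => by
    induction hm using Submodule.span_induction with
    | mem m hm => exact Submodule.subset_span (x.ivE j hj m hm)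
    | zero => rw [z0 j hj]; exact (Sp E).zero_mem
    | add a b _ _ ha hb => rw [(T j hj).2.1]; exact (Sp E).add_mem ha hb
    | smul c a _ ha => rw [(T j hj).2.2.1]; exact (Sp E).smul_mem _ ha
  have i2 : Iv Θ (Bl u q E) := fun j hj f ⟨f1, f2, f3, f4⟩ => by
    obtain ⟨b, -, -, -, mul, adj, -⟩ := T j hj
    have mul' : ∀ a ∈ Sp E, ∀ c ∈ Sp E, th j (a * c) = th j a * th j c := fun a ha c hc => by
      rw [mul]
      split_ifs
      · exact (cm _ (i1 j hj c hc) _ (i1 j hj a ha)).2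
      · rfl
    refine ⟨i1 j hj f f1, ⟨by rw [← mul' f f1 f f1, f2.sq], fun hu => by rw [← adj hu, f2.fx hu]⟩,
      fun e => f3 (b.1 (e.trans (z0 j hj).symm)), fun e he ie ef => ?_⟩
    obtain ⟨e₀, h0, rfl⟩ := (bij _ i1 j hj).surjOn he
    rcases f4 e₀ h0 ⟨b.1 (by rw [mul' _ h0 _ h0, ie.sq]), fun hu => b.1 (by rw [adj hu, ie.fx hu])⟩
      (b.1 (by rw [mul' _ h0 _ f1, ef])) with rfl | rfl
    · exact Or.inl (z0 j hj)
    · exact Or.inr rfl
  refine ⟨i1, i2, fun j hj m hm => (bij _ x.ivE j hj).surjOn hm, fun h => ?_⟩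
  have tr : Trn u q Θ E := fun 𝒮 h1 h2 => by
    obtain ⟨S, rfl⟩ := (Set.toFinite 𝒮).exists_finset_coe
    obtain ⟨k1, k2, k3⟩ := sm S h1
    have k4 : Iv Θ {∑ f ∈ S, f} := fun j hj m hm => by
      rw [Set.mem_singleton_iff] at hm ⊢
      have b := bij _ h2 j hj
      rw [hm]
      exact (map_sum (AddMonoidHom.mk' (th j) (T j hj).2.1) (fun f => f) S).trans
        (Finset.sum_nbij (th j) (fun a ha => b.mapsTo ha) b.injOn b.surjOn fun _ _ => rfl)
    rcases h _ k1 k2 k4 with e | e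
    · refine Or.inl (Set.eq_empty_of_forall_notMem fun f hf => (h1 hf).2.2.1 ?_)
      have := k3 f (h1 hf)
      rw [e, mul_zero] at this
      split_ifs at this with hh
      · exact this.symm
      · exact absurd hf hh
    · refine Or.inr (Set.Subset.antisymm h1 fun f hf => ?_)
      have := k3 f hf
      rw [e, mul_one] at this
      split_ifs at this with hh
      · exact hh
      · exact absurd this hf.2.2.1
  refine ⟨tr, ?_⟩
  obtain ⟨f₀, hf⟩ : 𝒯.Nonempty := by
    refine Finset.nonempty_iff_ne_empty.2 fun e => ?_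
    rw [e, Finset.sum_empty] at hs
    have : NeZero n := ⟨by have := x.par.two; omega⟩
    exact zero_ne_one hs
  have hf' : f₀ ∈ Bl u q E := hT ▸ Finset.mem_coe.2 hf
  refine ⟨f₀.rank, Nat.one_le_iff_ne_zero.2 fun e => hf'.2.2.1 ((rk n F).2.2.2.1 f₀ e), ?_⟩
  rcases tr {f | f ∈ Bl u q E ∧ f.rank = f₀.rank} (fun f hf => hf.1)
    (fun j hj f hf => ⟨i2 j hj f hf.1, ((T j hj).2.2.2.2.2.2 f).trans hf.2⟩) with e | e
  · exact absurd (show f₀ ∈ {f | f ∈ Bl u q E ∧ f.rank = f₀.rank} from ⟨hf', rfl⟩)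
      (e ▸ Set.notMem_empty f₀)
  · intro f hf
    rw [← e] at hf
    exact hf.2

end H47.SimBI

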