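import Cfsg.Agent.H52.SimXSSpec

/-! S3694, chapter XS: the centraliser ring is simple with scalar centre (job SC). -/

set_option autoImplicit false

namespace H47.SimSC

open Subgroup Cfsg H98 Matrix H0.Sim H52.XS

theorem job : JobSC := by
  intro n F _ _ Z E P ex av
  have : Nonempty (Fin n) := ⟨⟨0, ex.pos⟩⟩
  obtain ⟨T, hT, -, -, sum⟩ := av.sum
  have cE : ∀ c ∈ CE E, ∀ x ∈ E, (x : Mt n F) * c = c * x := fun c hc x hx =>
    (Subalgebra.mem_centralizer_iff F).1 hc _ ⟨x, hx, rfl⟩
  have sc : ∀ x ∈ E, ∃ s : F, P (x : Mt n F) = s • (1 : Mt n F) := fun x hx => by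
    by_cases hz : x ∈ Z
    · obtain ⟨s, hs⟩ := ex.Zc x hz
      refine ⟨s, ?_⟩
      have : (x : Mt n F) = s • (1 : Mt n F) := by
        rw [hs, Matrix.scalar_apply, Matrix.smul_one_eq_diagonal]
      rw [this, map_smul, av.one]
    · exact ⟨0, by rw [av.zero x hx hz, zero_smul]⟩
  let Pc : Mt n F →+ CE E :=
    { toFun := fun w => ⟨P w, av.mem w⟩
      map_zero' := Subtype.ext (map_zero P)
      map_add' := fun a b => Subtype.ext (map_add P a b) }
  refine ⟨IsSimpleRing.of_eq_bot_or_eq_top fun I => ?_, fun m hm hc => ?_⟩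
  · by_cases h0 : ∀ c ∈ I, c = 0
    · exact Or.inl (eq_bot_iff.2 fun c hc => (TwoSidedIdeal.mem_bot _).2 (h0 c hc))
    push Not at h0
    obtain ⟨c, hc, c0⟩ := h0
    let J : TwoSidedIdeal (Mt n F) := TwoSidedIdeal.mk' {w | ∀ a b, Pc (a * w * b) ∈ I}
      (fun a b => by simp)
      (fun {x y} hx hy a b => by
        rw [mul_add, add_mul, map_add]; exact I.add_mem (hx a b) (hy a b))
      (fun {x} hx a b => by rw [mul_neg, neg_mul, map_neg]; exact I.neg_mem (hx a b))
      (fun {x y} hy a b => by rw [← mul_assoc]; exact hy _ b)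
      (fun {x y} hx a b => by rw [← mul_assoc, mul_assoc _ y]; exact hx a _)
    have hJ : (c : Mt n F) ∈ J := by
      rw [TwoSidedIdeal.mem_mk']
      intro a b
      rw [sum a, sum b, Finset.sum_mul, Finset.sum_mul, map_sum]
      refine sum_mem fun x hx => ?_
      rw [Finset.mul_sum, map_sum]
      refine sum_mem fun y hy => ?_
      obtain ⟨s, hs⟩ := sc _ (mul_mem (hT x hx) (hT y hy))
      have e : Pc ((x : Mt n F) * P (((x⁻¹ : GL (Fin n) F) : Mt n F) * a) * c *
          ((y : Mt n F) * P (((y⁻¹ : GL (Fin n) F) : Mt n F) * b))) =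
          algebraMap F (CE E) s * (Pc (((x⁻¹ : GL (Fin n) F) : Mt n F) * a) * c *
            Pc (((y⁻¹ : GL (Fin n) F) : Mt n F) * b)) := by
        apply Subtype.ext
        have m1 := mul_mem (av.mem (((x⁻¹ : GL (Fin n) F) : Mt n F) * a)) c.2
        have m2 := mul_mem m1 (av.mem (((y⁻¹ : GL (Fin n) F) : Mt n F) * b))
        have e1 := cE _ m1 y (hT y hy)
        have e2 := av.r _ m2 ((x * y : GL (Fin n) F) : Mt n F)
        rw [hs] at e2
        show P _ = algebraMap F (Mt n F) s * (P _ * (c : Mt n F) * P _)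
        rw [Algebra.algebraMap_eq_smul_one, ← e2, Units.val_mul]
        congr 1
        simp only [← mul_assoc] at e1 ⊢
        rw [mul_assoc (x : Mt n F) (y : Mt n F), mul_assoc (x : Mt n F) (_ * _) (c : Mt n F), e1]
        simp only [mul_assoc]
      rw [e]
      exact I.mul_mem_left _ _ (I.mul_mem_right _ _ (I.mul_mem_left _ _ hc))
    have h1 := IsSimpleRing.one_mem_of_ne_zero_mem J (fun e => c0 (Subtype.ext e)) hJ
    rw [TwoSidedIdeal.mem_mk'] at h1
    have h2 := h1 1 1
    rw [mul_one, mul_one, show Pc 1 = 1 from Subtype.ext av.one] at h2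
    exact Or.inr (I.eq_top h2)
  · have all : ∀ w : Mt n F, w * m = m * w := fun w => by
      rw [sum w, Finset.sum_mul, Finset.mul_sum]
      refine Finset.sum_congr rfl fun x hx => ?_
      rw [mul_assoc, ← hc _ (av.mem _), ← mul_assoc, cE m hm x (hT x hx), mul_assoc]
    obtain ⟨s, hs⟩ := Matrix.mem_range_scalar_iff_commute_single'.2 fun i j => all _
    exact ⟨s, hs.symm⟩

end H47.SimSC

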